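import Cfsg.Agent.H441.RG.CentS
import Cfsg.Agent.Nodes.SimplyLaced
import Cfsg.Agent.Lib.Cores

/-!
# S3509, mixed covers, M3a: the `p'`-elements of the root subgroups in a normal subgroup of a centraliser (helper534)

The frame of `H441/RG/CentS.lean`: `C = fixC α t`, `P = PP0` (fixed points of `α` in the positive unipotent part of `C_Y(t)`).
`K ≤ C` normalised by `P`, without nontrivial normal `p`-subgroups, `K ∩ P ≠ 1`.

* `exists_kap` : `u k ∈ K`, `u ∈ P`, `k` over `w` not preserving the positive roots of `Sx t`;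
* `mem_KP_neg` : the fixed elements of `Sup (-S)` lie in `K P`, `S ⊆ Sg w`, `Sg w` the positive roots of `Sx t` made negative by `w⁻¹`;
* `mem_of_KP` : the elements of `K P` of order prime to `p` lie in `K`;
* `exists_orbit` : simply laced: a positive root `b` of `Sx t`, the roots of its `θ`-orbit are orthogonal, such that the elements of
  order prime to `p` of the group generated by the fixed elements of `Sup (± orbit)` lie in `K`.
-/

set_option autoImplicit false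
set_option linter.unusedSectionVars false

namespace Cfsg.Agent.H534.MX

open CoxeterSystem Cfsg.Agent.ChevalleyStructure.CoxeterGeom Cfsg.Agent.Tits.Roots Cfsg.Agent.Tits.Core
  Cfsg.Agent.Tits.RootComb Cfsg.Agent.Tits.Exchange Cfsg.Agent.Nodes.Reps Cfsg.Agent.Nodes.BNOf
  Cfsg.Agent.Nodes.StabComb Cfsg.Agent.Nodes.Bruhat Cfsg.Agent.Nodes.OppDec Cfsg.Agent.Nodes.LeviDec
  Cfsg.Agent.Nodes.NormalForm Cfsg.Agent.Nodes.SubComb Cfsg.Agent.KFacts.RgdField Cfsg.Agent.Nodes.Coroot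
  Cfsg.Agent.Nodes.SimplyLaced
  Cfsg.Agent.BpExc.TorCent Cfsg.Agent.BpExc.Tow Cfsg.Agent.BpExc.Fr Cfsg.Agent.BpExc.Pair Cfsg.Agent.H28.RG
  Cfsg.Agent.H441.RG

/-! ### `K P` -/

section Abs

variable {Y : Type*} [Group Y]

/-- the group `K P`, `P` normalising `K` -/
def KPs (K P : Subgroup Y) (hPK : ∀ g ∈ P, ∀ x ∈ K, g * x * g⁻¹ ∈ K) : Subgroup Y where
  carrier := {y | ∃ k ∈ K, ∃ g ∈ P, y = k * g}
  one_mem' := ⟨1, one_mem _, 1, one_mem _, (mul_one 1).symm⟩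
  mul_mem' := by
    rintro _ _ ⟨k, hk, g, hg, rfl⟩ ⟨k', hk', g', hg', rfl⟩
    exact ⟨k * (g * k' * g⁻¹), mul_mem hk (hPK g hg k' hk'), g * g', mul_mem hg hg', by group⟩
  inv_mem' := by
    rintro _ ⟨k, hk, g, hg, rfl⟩
    refine ⟨g⁻¹ * k⁻¹ * g, ?_, g⁻¹, inv_mem hg, by group⟩
    have := hPK g⁻¹ (inv_mem hg) k⁻¹ (inv_mem hk)
    rwa [inv_inv] at this

variable {K P : Subgroup Y} (hPK : ∀ g ∈ P, ∀ x ∈ K, g * x * g⁻¹ ∈ K)

theorem mem_KPs {y : Y} : y ∈ KPs K P hPK ↔ ∃ k ∈ K, ∃ g ∈ P, y = k * g := Iff.rfl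

theorem right_le : P ≤ KPs K P hPK := fun g hg => ⟨1, one_mem _, g, hg, (one_mul g).symm⟩

/-- **The elements of `K P` of order prime to `p` lie in `K`.** -/
theorem mem_of_KP {p : ℕ} (hP : IsPGroup p ↥P) {y : Y} (hy : y ∈ KPs K P hPK) {m : ℕ} (hm : m.Coprime p)
    (hym : y ^ m = 1) : y ∈ K := by
  obtain ⟨k, hk, g, hg, rfl⟩ := hy
  have h1 : ∀ n : ℕ, ∃ k' ∈ K, (k * g) ^ n = k' * g ^ n := by
    intro n
    induction n with
    | zero => exact ⟨1, one_mem _, by rw [pow_zero, pow_zero, mul_one]⟩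
    | succ n ih =>
      obtain ⟨k', hk', e⟩ := ih
      refine ⟨k * (g * k' * g⁻¹), mul_mem hk (hPK g hg k' hk'), ?_⟩
      rw [pow_succ', e, pow_succ']
      group
  obtain ⟨j, hj⟩ := hP ⟨g, hg⟩
  have hj' : g ^ p ^ j = 1 := by
    have := congrArg (fun z : ↥P => (z : Y)) hj
    simpa using this
  obtain ⟨k', hk', e⟩ := h1 (p ^ j)
  rw [hj', mul_one] at e
  have h2 : (k * g) ^ p ^ j ∈ K := by rw [e]; exact hk'
  have h3 : (orderOf (k * g)).Coprime (p ^ j) :=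
    Nat.Coprime.pow_right j (hm.coprime_dvd_left (orderOf_dvd_of_pow_eq_one hym))
  obtain ⟨i, hi⟩ := exists_pow_eq_self_of_coprime h3.symm
  rw [← hi]
  exact pow_mem h2 i

end Abs

variable {I W Y : Type*} [Fintype I] [DecidableEq I] [Group W] [Finite W] [Group Y] {M : CoxeterMatrix I}
  {cs : CoxeterSystem M W} {A : I → I → ℤ} {h : IsCartan M A} {p : ℕ}
  {J : Type*} [Preorder J] {T : J → Subgroup Y} {n : I → Y} {X : J → (I → ℤ) → Subgroup Y}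
  {F : Type*} [Field F] {xx : (I → ℤ) → F → Y} {χ : (I → ℤ) → Y → F}
  (H : Tow cs h p T n X) (C : Coords cs h (TL T) n (XL X) xx χ)
  {α : MulAut Y} {θ : (I → ℤ) ≃+ (I → ℤ)} (Fα : Fr cs h (TL T) (XL X) α θ)
  {t : Y} (Dt : CDat cs h T X χ α θ t)

/-- the positive roots of `Sx t` made negative by `w⁻¹` -/
def Sg (cs : CoxeterSystem M W) (h : IsCartan M A) (χ : (I → ℤ) → Y → F) (t : Y) (w : W) : Set (I → ℤ) :=
  {b | b ∈ SP cs h χ t ∧ rep cs h w⁻¹ b ≤ 0}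

include H C Fα Dt

/-- **The element `κ`.** -/
theorem exists_kap {K : Subgroup Y} (hKC : K ≤ fixC α t) (hPK : ∀ g ∈ PP0 cs h X χ α t, ∀ x ∈ K, g * x * g⁻¹ ∈ K)
    (hcore : ∀ L ≤ K, (∀ k ∈ K, ∀ x ∈ L, k * x * k⁻¹ ∈ L) → IsPGroup p ↥L → L = ⊥)
    (hKP : K ⊓ PP0 cs h X χ α t ≠ ⊥) :
    ∃ (w : W) (k u : Y), Rp cs H.nsys w k ∧ k * t = t * k ∧ α k = k ∧ u ∈ PP0 cs h X χ α t ∧ u * k ∈ K ∧
      w ∉ PP cs h χ t := by
  by_contra hcon
  push Not at hcon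
  apply hKP
  refine hcore _ inf_le_left ?_ ?_
  · intro g hg x hx
    obtain ⟨hx1, hx2⟩ := Subgroup.mem_inf.1 hx
    refine Subgroup.mem_inf.2 ⟨mul_mem (mul_mem hg hx1) (inv_mem hg), ?_⟩
    obtain ⟨h3, h4⟩ := mem_fixC.1 (hKC hg)
    obtain ⟨w, u, hu, hαu, k, hk, hkt, hαk, v, hv, hαv, hkv, e⟩ :=
      form_fix H C Fα Dt.hG Dt.hsep Dt.hA Dt.ht Dt.hα Dt.hpos h4 h3
    have hv' : v ∈ PP0 cs h X χ α t := ⟨hv, hαv⟩
    have hu' : u ∈ PP0 cs h X χ α t := ⟨hu, hαu⟩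
    have h5 := hPK v hv' g hg
    have e2 : v * g * v⁻¹ = v * u * k := by rw [e]; group
    rw [e2] at h5
    have hw := hcon w k (v * u) hk hkt hαk (mul_mem hv' hu') h5
    have h6 : ∀ y ∈ PP0 cs h X χ α t, k * y * k⁻¹ ∈ PP0 cs h X χ α t := fun y hy =>
      ⟨norm_Up H hk hw hy.1, by
        have : α y = y := hy.2
        show α (k * y * k⁻¹) = k * y * k⁻¹
        rw [map_mul, map_mul, map_inv, hαk, this]⟩
    have e3 : g * x * g⁻¹ = u * (k * (v * x * v⁻¹) * k⁻¹) * u⁻¹ := by rw [e]; group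
    rw [e3]
    exact mul_mem (mul_mem hu' (h6 _ (mul_mem (mul_mem hv' hx2) (inv_mem hv')))) (inv_mem hu')
  · have h1 : IsPGroup p ↥(PP0 cs h X χ α t) := (isPGroup_Up H (χ := χ) (t := t)).to_le inf_le_left
    exact h1.to_le inf_le_right

omit H Fα in
/-- `w` preserves `Sx t` -/
theorem chi_act {w : W} {k : Y} (hN : NSys M (TL T) n) (hk : Rp cs hN w k) (hkt : k * t = t * k) {a : I → ℤ}
    (ha : IsRoot cs h a) : χ (rep cs h w a) t = χ a t := by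
  have h1 := C.chi_rp hN hk ha Dt.ht
  have h2 : k * t * k⁻¹ = t := by rw [hkt]; group
  rwa [h2] at h1

theorem Sg_nonempty {w : W} {k : Y} (hk : Rp cs H.nsys w k) (hkt : k * t = t * k) (hw : w ∉ PP cs h χ t) :
    (Sg cs h χ t w).Nonempty := by
  rw [mem_PP] at hw
  push Not at hw
  obtain ⟨a, ha, ha0, hwa⟩ := hw (fun a ha => chi_act C Dt H.nsys hk hkt ha)
  have h1 : rep cs h w a ≤ 0 := by
    rcases (ha.1.act w).pos_or_neg with h0 | h0
    · exact absurd h0 hwa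
    · exact h0
  refine ⟨-rep cs h w a, ⟨⟨(ha.1.act w).neg, ?_⟩, neg_nonneg.2 h1⟩, ?_⟩
  · have h2 : rep cs h w a ∈ Sx cs h χ t := ⟨ha.1.act w, by rw [chi_act C Dt H.nsys hk hkt ha.1]; exact ha.2⟩
    exact (chi_neg C Dt.ht Dt.hA h2).2
  · rw [map_neg, ← rep_mul_apply, inv_mul_cancel, map_one, Module.End.one_apply]
    exact neg_nonpos.2 ha0

theorem Sg_theta {w : W} {k : Y} (hk : Rp cs H.nsys w k) (hkt : k * t = t * k) (hαk : α k = k) {b : I → ℤ}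
    (hb : b ∈ Sg cs h χ t w) : θ b ∈ Sg cs h χ t w := by
  refine ⟨⟨(Fα.mem_Sx C Dt.ht Dt.hα b).2 hb.1.1, Dt.hpos b hb.1.1 hb.1.2⟩, ?_⟩
  refine neg_theta H C Fα Dt hk.inv ?_ ?_ hb.1 hb.2
  · calc k⁻¹ * t = k⁻¹ * (t * k) * k⁻¹ := by group
      _ = k⁻¹ * (k * t) * k⁻¹ := by rw [hkt]
      _ = t * k⁻¹ := by group
  · rw [map_inv, hαk]

/-- **The negative elements.** -/
theorem mem_KP_neg {K : Subgroup Y} (hPK : ∀ g ∈ PP0 cs h X χ α t, ∀ x ∈ K, g * x * g⁻¹ ∈ K)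
    {w : W} {k u : Y} (hk : Rp cs H.nsys w k) (hkt : k * t = t * k) (hαk : α k = k) (hu : u ∈ PP0 cs h X χ α t)
    (huk : u * k ∈ K) {S : Set (I → ℤ)} (hS : ∀ b ∈ S, -b ∈ Sg cs h χ t w) {x : Y}
    (hx : x ∈ RGD.Sup (XL X) S) (hαx : α x = x) : x ∈ KPs K (PP0 cs h X χ α t) hPK := by
  have hroot : ∀ b ∈ S, IsRoot cs h b := fun b hb => by
    have := (hS b hb).1.1.1.neg
    rwa [neg_neg] at this
  have h1 : k⁻¹ * x * k ∈ PP0 cs h X χ α t := by
    refine ⟨?_, ?_⟩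
    · have h2 := conj_SupL H hk.inv (S := S) (S' := SP cs h χ t) hroot (fun b hb => ?_) hx
      · rwa [inv_inv] at h2
      · have h3 := (hS b hb).2
        rw [map_neg, neg_nonpos] at h3
        refine ⟨⟨(hroot b hb).act _, ?_⟩, h3⟩
        have h4 : χ (rep cs h w (rep cs h w⁻¹ b)) t = χ (rep cs h w⁻¹ b) t :=
          chi_act C Dt H.nsys hk hkt ((hroot b hb).act _)
        rw [← rep_mul_apply, mul_inv_cancel, map_one, Module.End.one_apply] at h4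
        rw [← h4]
        have h5 := chi_neg C Dt.ht Dt.hA (hS b hb).1.1
        rw [neg_neg] at h5
        exact h5.2
    · show α (k⁻¹ * x * k) = k⁻¹ * x * k
      rw [map_mul, map_mul, map_inv, hαk, hαx]
  -- `x = u⁻¹ (κ p κ⁻¹) u`
  set q := k⁻¹ * x * k with hq
  have e1 : x = (u⁻¹ * ((u * k) * (q * (u * k)⁻¹ * q⁻¹)) * u) * (u⁻¹ * q * u) := by
    rw [hq]; group
  refine ⟨_, ?_, _, mul_mem (mul_mem (inv_mem hu) h1) hu, e1⟩
  have h3 : (u * k) * (q * (u * k)⁻¹ * q⁻¹) ∈ K := mul_mem huk (hPK q h1 _ (inv_mem huk))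
  have h4 := hPK u⁻¹ (inv_mem hu) _ h3
  rwa [inv_inv] at h4

omit H in
/-- `θ^j` preserves `Sx t` and its positive roots -/
theorem iter_mem {b : I → ℤ} (hb : b ∈ SP cs h χ t) (j : ℕ) : θ^[j] b ∈ SP cs h χ t := by
  induction j with
  | zero => exact hb
  | succ j ih =>
    rw [Function.iterate_succ_apply']
    exact ⟨(Fα.mem_Sx C Dt.ht Dt.hα _).2 ih.1, Dt.hpos _ ih.1 ih.2⟩

omit H in
/-- the sum over a `θ`-orbit of a root of `Sx t` is not zero -/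
theorem orb_sum_ne {b : I → ℤ} (hb : b ∈ Sx cs h χ t) {m : ℕ} (hm : 0 < m) :
    ∑ i ∈ Finset.range m, θ^[i] b ≠ 0 := by
  have key : ∀ a : I → ℤ, a ∈ SP cs h χ t → ∑ i ∈ Finset.range m, θ^[i] a ≠ 0 := by
    intro a ha hs
    have h6 : 0 < ∑ i ∈ Finset.range m, ht (θ^[i] a) :=
      Finset.sum_pos (fun i _ => RGD.ht_pos (iter_mem C Fα Dt ha i).1.1 (iter_mem C Fα Dt ha i).2)
        ⟨0, Finset.mem_range.2 hm⟩
    have h7 : ∑ i ∈ Finset.range m, ht (θ^[i] a) = ht (∑ i ∈ Finset.range m, θ^[i] a) :=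
      (map_sum Nodes.Slope.htHom _ _).symm
    rw [h7, hs] at h6
    exact absurd h6 (by unfold ht; simp)
  rcases hb.1.pos_or_neg with h0 | h0
  · exact key b ⟨hb, h0⟩
  · intro hs
    refine key (-b) ⟨chi_neg C Dt.ht Dt.hA hb, neg_nonneg.2 h0⟩ ?_
    have h5 : ∀ i : ℕ, θ^[i] (-b) = - θ^[i] b := fun i => by
      induction i with
      | zero => rfl
      | succ i ih => rw [Function.iterate_succ_apply', ih, map_neg, ← Function.iterate_succ_apply' (f := θ)]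
    simp only [h5, Finset.sum_neg_distrib, hs, neg_zero]

omit H in
/-- every root of `Sx t` is periodic under `θ` -/
theorem exists_period {b : I → ℤ} (hb : IsRoot cs h b) : ∃ m : ℕ, 0 < m ∧ θ^[m] b = b := by
  have hfin := RGD.finite_roots (cs := cs) (h := h)
  have h1 : ∀ j : ℕ, IsRoot cs h (θ^[j] b) := by
    intro j
    induction j with
    | zero => exact hb
    | succ j ih => rw [Function.iterate_succ_apply']; exact (Fα.root _).2 ih
  have hnot : ¬ Function.Injective (fun j : ℕ => (⟨θ^[j] b, h1 j⟩ : {x | IsRoot cs h x})) := by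
    intro hi
    have := hfin.to_subtype
    exact not_injective_infinite_finite _ hi
  rw [Function.Injective] at hnot
  push Not at hnot
  obtain ⟨i, j, hij, hne⟩ := hnot
  have hij' : θ^[i] b = θ^[j] b := congrArg Subtype.val hij
  have key : ∀ i j : ℕ, i < j → θ^[i] b = θ^[j] b → ∃ m : ℕ, 0 < m ∧ θ^[m] b = b := by
    intro i j hlt e
    refine ⟨j - i, by omega, ?_⟩
    have h2 : θ^[i] (θ^[j - i] b) = θ^[i] b := by
      rw [← Function.iterate_add_apply, show i + (j - i) = j by omega]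
      exact e.symm
    exact (θ.injective.iterate i) h2
  rcases lt_or_gt_of_ne hne with h2 | h2
  · exact key i j h2 hij'
  · exact key j i h2 hij'.symm

omit H Fα in
/-- the sum of two roots of `Sx t` -/
theorem add_mem_Sx {a b : I → ℤ} (ha : a ∈ Sx cs h χ t) (hb : b ∈ Sx cs h χ t) (hab : IsRoot cs h (a + b)) :
    a + b ∈ Sx cs h χ t := by
  obtain ⟨φ, h0, hadd, hφ⟩ := Dt.hA t Dt.ht
  refine ⟨hab, ?_⟩
  rw [hφ _ hab, hadd, ← hφ a ha.1, ← hφ b hb.1, ha.2, hb.2, mul_one]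

/-- **The orbit.** `Sg w` contains a root whose `θ`-orbit consists of orthogonal roots. -/
theorem exists_orth (h4 : ∀ i j, M i j ≠ 4) (h6 : ∀ i j, M i j ≠ 6) {w : W} {k : Y} (hk : Rp cs H.nsys w k)
    (hkt : k * t = t * k) (hαk : α k = k) (hw : w ∉ PP cs h χ t) :
    ∃ b ∈ Sg cs h χ t w, (∀ c ∈ Sg cs h χ t w, ht c ≤ ht b) ∧
      ∀ j, θ^[j] b ≠ b → cpr cs h b (θ^[j] b) = 0 := by
  have hfin : (Sg cs h χ t w).Finite :=
    (RGD.finite_roots (cs := cs) (h := h)).subset fun b hb => hb.1.1.1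
  obtain ⟨b, hb, hmax⟩ := Set.exists_max_image _ ht hfin (Sg_nonempty H C Fα Dt hk hkt hw)
  refine ⟨b, hb, hmax, fun j hj => ?_⟩
  have hiter : ∀ j : ℕ, θ^[j] b ∈ Sg cs h χ t w := by
    intro j
    induction j with
    | zero => exact hb
    | succ j ih => rw [Function.iterate_succ_apply']; exact Sg_theta H C Fα Dt hk hkt hαk ih
  set b' := θ^[j] b with hb'
  have hb'S : b' ∈ Sg cs h χ t w := hiter j
  have hbr := hb.1.1.1
  have hbr' := hb'S.1.1.1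
  have hne' : b ≠ -b' := by
    intro e
    have h1 := hb.1.2
    rw [e] at h1
    exact hbr'.not_pos_neg hb'S.1.2 (neg_nonneg.1 h1)
  have habs := abs_cpr_le_one cs h h4 h6 hbr hbr' (Ne.symm hj) hne'
  rw [abs_le] at habs
  have href := isRoot_refl cs h hbr hbr'
  have hcases : cpr cs h b b' = 0 ∨ cpr cs h b b' = 1 ∨ cpr cs h b b' = -1 := by omega
  rcases hcases with h1 | h1 | h1
  · exact h1
  · -- `b - b'` is a root with orbit sum `0`
    exfalso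
    rw [h1, one_smul] at href
    have h2 : b - b' ∈ Sx cs h χ t := by
      have h3 := add_mem_Sx C Dt hb.1.1 (chi_neg C Dt.ht Dt.hA hb'S.1.1) (by rwa [← sub_eq_add_neg])
      rwa [← sub_eq_add_neg] at h3
    obtain ⟨m, hm, hmb⟩ := exists_period C Fα Dt (θ := θ) hbr
    apply orb_sum_ne C Fα Dt h2 hm
    have h5 : ∀ i : ℕ, θ^[i] (b - b') = θ^[i] b - θ^[i + j] b := fun i => by
      rw [Function.iterate_add_apply, ← hb']
      induction i with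
      | zero => rfl
      | succ i ih =>
        rw [Function.iterate_succ_apply', ih, map_sub, ← Function.iterate_succ_apply' (f := θ),
          ← Function.iterate_succ_apply' (f := θ)]
    simp only [h5]
    rw [Finset.sum_sub_distrib, sub_eq_zero]
    have hper : ∀ j : ℕ, ∑ i ∈ Finset.range m, θ^[i + j] b = ∑ i ∈ Finset.range m, θ^[i] b := by
      intro j
      induction j with
      | zero => rfl
      | succ j ih =>
        rw [← ih]
        have h6 : ∀ i, θ^[i + (j + 1)] b = θ^[(i + 1) + j] b := fun i => by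
          rw [show i + (j + 1) = (i + 1) + j by omega]
        simp only [h6]
        have h7 := Finset.sum_range_succ (fun i => θ^[i + j] b) m
        have h8 := Finset.sum_range_succ' (fun i => θ^[i + j] b) m
        have h9 : θ^[m + j] b = θ^[0 + j] b := by
          rw [show m + j = j + m by omega, Function.iterate_add_apply, hmb, zero_add]
        rw [h7, h9] at h8
        exact (add_right_cancel h8).symm
    exact (hper j).symm
  · exfalso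
    rw [h1, neg_one_smul, sub_neg_eq_add] at href
    have h2 : b + b' ∈ Sg cs h χ t w := by
      refine ⟨⟨add_mem_Sx C Dt hb.1.1 hb'S.1.1 href, add_nonneg hb.1.2 hb'S.1.2⟩, ?_⟩
      rw [map_add]
      exact add_nonpos hb.2 hb'S.2
    have h3 := hmax _ h2
    rw [RGD.ht_add] at h3
    have h4 := RGD.ht_pos hbr' hb'S.1.2
    omega

/-- the `θ`-orbit -/
def orb (θ : (I → ℤ) ≃+ (I → ℤ)) (b : I → ℤ) : Set (I → ℤ) := {c | ∃ j : ℕ, c = θ^[j] b}

/-- the negatives of the `θ`-orbit -/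
def orbN (θ : (I → ℤ) ≃+ (I → ℤ)) (b : I → ℤ) : Set (I → ℤ) := {c | ∃ j : ℕ, c = -θ^[j] b}

theorem iter_mem_Sg {w : W} {k : Y} (hk : Rp cs H.nsys w k) (hkt : k * t = t * k) (hαk : α k = k) {b : I → ℤ}
    (hb : b ∈ Sg cs h χ t w) (j : ℕ) : θ^[j] b ∈ Sg cs h χ t w := by
  induction j with
  | zero => exact hb
  | succ j ih => rw [Function.iterate_succ_apply']; exact Sg_theta H C Fα Dt hk hkt hαk ih

/-- the positive fixed elements lie in `P` -/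
theorem mem_PP0_orb {b : I → ℤ} (hb : b ∈ SP cs h χ t) {x : Y} (hx : x ∈ RGD.Sup (XL X) (orb θ b)) (hαx : α x = x) :
    x ∈ PP0 cs h X χ α t := by
  refine ⟨RGD.Sup_mono (S := orb θ b) (S' := SP cs h χ t) ?_ hx, hαx⟩
  rintro _ ⟨j, rfl⟩
  exact iter_mem C Fα Dt hb j

/-- the root groups of the `θ`-orbit of an element of `Sg w` -/
theorem closure_le_KP {K : Subgroup Y} (hPK : ∀ g ∈ PP0 cs h X χ α t, ∀ x ∈ K, g * x * g⁻¹ ∈ K)
    {w : W} {k u : Y} (hk : Rp cs H.nsys w k) (hkt : k * t = t * k) (hαk : α k = k) (hu : u ∈ PP0 cs h X χ α t)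
    (huk : u * k ∈ K) {b : I → ℤ} (hb : b ∈ Sg cs h χ t w) :
    Subgroup.closure ({x | x ∈ RGD.Sup (XL X) (orb θ b) ∧ α x = x} ∪ {x | x ∈ RGD.Sup (XL X) (orbN θ b) ∧ α x = x}) ≤
      KPs K (PP0 cs h X χ α t) hPK := by
  rw [Subgroup.closure_le]
  rintro x (⟨hx, hαx⟩ | ⟨hx, hαx⟩)
  · exact right_le hPK (mem_PP0_orb H C Fα Dt hb.1 hx hαx)
  · refine mem_KP_neg H C Fα Dt hPK hk hkt hαk hu huk (S := orbN θ b) ?_ hx hαx
    rintro _ ⟨j, rfl⟩
    rw [neg_neg]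
    exact iter_mem_Sg H C Fα Dt hk hkt hαk hb j

/-- **M3a.** -/
theorem exists_orbit [Fact p.Prime] (h4 : ∀ i j, M i j ≠ 4) (h6 : ∀ i j, M i j ≠ 6) {K : Subgroup Y}
    (hKC : K ≤ fixC α t) (hPK : ∀ g ∈ PP0 cs h X χ α t, ∀ x ∈ K, g * x * g⁻¹ ∈ K)
    (hcore : ∀ L ≤ K, (∀ k ∈ K, ∀ x ∈ L, k * x * k⁻¹ ∈ L) → IsPGroup p ↥L → L = ⊥)
    (hKP : K ⊓ PP0 cs h X χ α t ≠ ⊥) :
    ∃ (w : W) (b : I → ℤ), b ∈ Sg cs h χ t w ∧ (∀ c ∈ Sg cs h χ t w, ht c ≤ ht b) ∧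
      (∀ c ∈ Sg cs h χ t w, θ c ∈ Sg cs h χ t w) ∧
      (∀ j, θ^[j] b ≠ b → cpr cs h b (θ^[j] b) = 0) ∧
      (∀ c ∈ Sg cs h χ t w, ∀ y ∈ Subgroup.closure ({x | x ∈ RGD.Sup (XL X) (orb θ c) ∧ α x = x} ∪
        {x | x ∈ RGD.Sup (XL X) (orbN θ c) ∧ α x = x}), ∀ m : ℕ, m.Coprime p → y ^ m = 1 → y ∈ K) := by
  obtain ⟨w, k, u, hk, hkt, hαk, hu, huk, hw⟩ := exists_kap H C Fα Dt hKC hPK hcore hKP
  obtain ⟨b, hb, hmax, horth⟩ := exists_orth H C Fα Dt h4 h6 hk hkt hαk hw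
  refine ⟨w, b, hb, hmax, fun c hc => Sg_theta H C Fα Dt hk hkt hαk hc, horth, fun c hc y hy m hm hym => ?_⟩
  have hP : IsPGroup p ↥(PP0 cs h X χ α t) := (isPGroup_Up H (χ := χ) (t := t)).to_le inf_le_left
  exact mem_of_KP hPK hP (closure_le_KP H C Fα Dt hPK hk hkt hαk hu huk hc hy) hm hym

/-! ### the hypotheses from `O_p(C) = 1` -/

omit H Fα Dt C in
/-- `O_p(K) = 1` for `K` normal in `C'`, `C'` normal in `C0`, `O_p(C0) = 1` -/
theorem core_of [Fact p.Prime] {C0 C' K : Subgroup Y} [Finite ↥C0] (hC' : C' ≤ C0)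
    (hC'n : ∀ c ∈ C0, ∀ x ∈ C', c * x * c⁻¹ ∈ C') (hK : K ≤ C') (hKn : ∀ c ∈ C', ∀ x ∈ K, c * x * c⁻¹ ∈ K)
    (h0 : Cfsg.pCore p ↥C0 = ⊥) {L : Subgroup Y} (hL : L ≤ K) (hLn : ∀ k ∈ K, ∀ x ∈ L, k * x * k⁻¹ ∈ L)
    (hLp : IsPGroup p ↥L) : L = ⊥ := by
  -- normality from conjugation
  have key : ∀ {A B : Subgroup Y}, A ≤ B → (∀ b ∈ B, ∀ x ∈ A, b * x * b⁻¹ ∈ A) → (A.subgroupOf B).Normal := by
    intro A B hAB hn
    refine ⟨fun x hx b => ?_⟩
    rw [Subgroup.mem_subgroupOf] at hx ⊢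
    exact hn b b.2 x hx
  have step : ∀ {A B : Subgroup Y}, A ≤ B → (∀ b ∈ B, ∀ x ∈ A, b * x * b⁻¹ ∈ A) → Finite ↥B →
      Cfsg.pCore p ↥B = ⊥ → Cfsg.pCore p ↥A = ⊥ := by
    intro A B hAB hn hfin hB
    have hN := key hAB hn
    have h1 := Cfsg.Agent.Lib.Cores.map_subtype_pCore p hN
    rw [hB, inf_bot_eq, Subgroup.map_eq_bot_iff_of_injective _ Subtype.val_injective] at h1
    have e : (A.subgroupOf B) ≃* A := Subgroup.subgroupOfEquivOfLe hAB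
    have h2 := Cfsg.Agent.Lib.Cores.map_equiv_pCore e p
    rw [← h2, h1, Subgroup.map_bot]
  have hfC' : Finite ↥C' := Finite.of_injective (Subgroup.inclusion hC') (Subgroup.inclusion_injective _)
  have h1 := step hC' hC'n inferInstance h0
  have h2 := step hK hKn hfC' h1
  have h3 := Cfsg.Agent.Lib.Cores.le_pCore (key hL hLn) (hLp.comap_subtype (K := K))
  rw [h2, le_bot_iff] at h3
  rwa [Subgroup.subgroupOf_eq_bot, disjoint_iff, inf_eq_left.2 hL] at h3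

/-- `K ∩ P ≠ 1` -/
theorem inf_ne_of [Fact p.Prime] [Finite ↥(fixC α t)] (P : Sylow p ↥(fixC α t))
    (hP : (P : Subgroup ↥(fixC α t)) = (PP0 cs h X χ α t).subgroupOf (fixC α t)) {C' K : Subgroup Y}
    (hC' : C' ≤ fixC α t) (hpC' : ∀ x ∈ fixC α t, (∃ j : ℕ, x ^ p ^ j = 1) → x ∈ C')
    (hK : K ≤ C') (hKn : ∀ c ∈ C', ∀ x ∈ K, c * x * c⁻¹ ∈ K) {u : Y} (hu : u ∈ K) (hu1 : u ≠ 1) (hup : ∃ j : ℕ, u ^ p ^ j = 1) :
    K ⊓ PP0 cs h X χ α t ≠ ⊥ := by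
  have hPC' : (P : Subgroup ↥(fixC α t)) ≤ C'.subgroupOf (fixC α t) := by
    intro x hx
    rw [Subgroup.mem_subgroupOf]
    obtain ⟨j, hj⟩ := P.isPGroup' ⟨x, hx⟩
    refine hpC' x x.2 ⟨j, ?_⟩
    have h1 := congrArg (fun z : ↥(P : Subgroup ↥(fixC α t)) => ((z : ↥(fixC α t)) : Y)) hj
    simpa using h1
  set Q := P.subtype hPC' with hQ
  let u' : ↥(C'.subgroupOf (fixC α t)) := ⟨⟨u, hC' (hK hu)⟩, hK hu⟩
  have hu' : IsPGroup p ↥(Subgroup.zpowers u') := by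
    obtain ⟨j, hj⟩ := hup
    have hj' : u' ^ p ^ j = 1 := by
      apply Subtype.ext
      apply Subtype.ext
      simpa [u'] using hj
    rintro ⟨_, n, rfl⟩
    refine ⟨j, Subtype.ext ?_⟩
    show (u' ^ n) ^ p ^ j = 1
    rw [← zpow_natCast, ← zpow_mul, mul_comm, zpow_mul, zpow_natCast, hj', one_zpow]
  obtain ⟨R, hR⟩ := hu'.exists_le_sylow
  have hfin : Finite ↥(C'.subgroupOf (fixC α t)) := inferInstance
  obtain ⟨g, hg⟩ := MulAction.exists_smul_eq ↥(C'.subgroupOf (fixC α t)) R Q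
  have h1 : g * u' * g⁻¹ ∈ (Q : Subgroup ↥(C'.subgroupOf (fixC α t))) := by
    rw [← hg]
    exact Subgroup.smul_mem_pointwise_smul _ (MulAut.conj g) _ (hR (Subgroup.mem_zpowers u'))
  have h2 : ((g * u' * g⁻¹ : ↥(C'.subgroupOf (fixC α t))) : ↥(fixC α t)) ∈ (P : Subgroup ↥(fixC α t)) := h1
  rw [hP, Subgroup.mem_subgroupOf] at h2
  have h3 : (((g * u' * g⁻¹ : ↥(C'.subgroupOf (fixC α t))) : ↥(fixC α t)) : Y) ∈ K :=
    hKn ((g : ↥(fixC α t)) : Y) g.2 u hu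
  intro hbot
  have h4 : (((g * u' * g⁻¹ : ↥(C'.subgroupOf (fixC α t))) : ↥(fixC α t)) : Y) ∈ K ⊓ PP0 cs h X χ α t :=
    Subgroup.mem_inf.2 ⟨h3, h2⟩
  rw [hbot, Subgroup.mem_bot] at h4
  have h5 : ((g : ↥(fixC α t)) : Y) * u * ((g : ↥(fixC α t)) : Y)⁻¹ = 1 := h4
  exact hu1 (conj_eq_one_iff.1 h5)

end Cfsg.Agent.H534.MX
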